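import Mathlib

/-! Generators of a central product of three quaternion groups (see `stubs/Cfsg/Agent/B3/PLAN.md`). -/

set_option autoImplicit false

namespace Cfsg.Agent.B3

universe u

/-- Generators of a central product of three quaternion groups. -/
structure Six {L : Type u} [Group L] (z : L) (i j : Fin 3 → L) : Prop where
  zz : z * z = 1
  z1 : z ≠ 1
  ii : ∀ k, i k * i k = z
  jj : ∀ k, j k * j k = z
  ij : ∀ k, i k * j k = z * (j k * i k)
  cc : ∀ k l, k ≠ l → i k * i l = i l * i k ∧ i k * j l = j l * i k ∧ j k * j l = j l * j k

end Cfsg.Agent.B3
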